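import Mathlib
import Cfsg.Agent.Char.Clifford
import Cfsg.Agent.Char.Indicator
import Cfsg.Agent.Char.Central
import Cfsg.Prelude.Def_DegreeGraph

/-! The affine group of a finite commutative ring and the degree graph of groups of order 6048. -/

set_option autoImplicit false

namespace Cfsg.Agent.LeU.Agl
open Cfsg.Agent.Char Cfsg.Agent.Char.Clifford

variable (R : Type) [CommRing R]

/-- the action of the units on the additive group -/
def act : Rˣ →* MulAut (Multiplicative R) :=
  (MulAutMultiplicative R).symm.toMonoidHom.comp (DistribMulAction.toAddAut Rˣ R)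

/-- the affine group -/
abbrev Aff : Type := Multiplicative R ⋊[act R] Rˣ

variable {R}

theorem act_apply (u : Rˣ) (x : Multiplicative R) :
    act R u x = Multiplicative.ofAdd ((u : R) * x.toAdd) := rfl

theorem solv : Group.IsSolvable (Aff R) :=
  Group.isSolvable_of_ker_le_range (SemidirectProduct.inl) (SemidirectProduct.rightHom)
    SemidirectProduct.range_inl_eq_ker_rightHom.ge

theorem card_aff : Nat.card (Aff R) = Nat.card R * Nat.card Rˣ := by
  rw [SemidirectProduct.card]; rfl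

/-- the character of the translations -/
def lam (ψ : AddChar R ℂ) : (SemidirectProduct.rightHom : Aff R →* Rˣ).ker →* ℂ where
  toFun n := ψ (n : Aff R).left.toAdd
  map_one' := by simp
  map_mul' a b := by
    have : (a : Aff R).right = 1 := a.2
    simp [SemidirectProduct.mul_left, this, AddChar.map_add_eq_mul]

theorem exists_irr [Finite R] {ψ : AddChar R ℂ} (hψ : ψ.IsPrimitive) :
    ∃ χ : Aff R → ℂ, IsIrrCharacter (Aff R) χ ∧ χ 1 = (Nat.card Rˣ : ℕ) := by
  have : Finite (Aff R) := Finite.of_equiv _ SemidirectProduct.equivProd.symm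
  have := Fintype.ofFinite (Aff R)
  have hθ := isIrr_linear (lam ψ).toHomUnits
  refine ⟨_, (isIrr_indFun_iff hθ).mpr fun g hg => ?_, ?_⟩
  · have h : ∀ x : R, ψ ((g.right : R) * x) = ψ x := fun x => by
      have := congrFun (mem_inertia.mp hg)
        ⟨SemidirectProduct.inl (Multiplicative.ofAdd x), by simp [MonoidHom.mem_ker]⟩
      simp only [conjFn, MonoidHom.coe_toHomUnits, lam, MonoidHom.coe_mk, OneHom.coe_mk] at this
      rw [SemidirectProduct.left_inl, toAdd_ofAdd] at this
      rw [← this]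
      congr 1
      rw [← SemidirectProduct.inl_left_mul_inr_right g, mul_inv_rev, mul_assoc, mul_assoc,
        ← mul_assoc (SemidirectProduct.inr _), ← mul_assoc (SemidirectProduct.inr _ * _),
        ← map_inv, ← SemidirectProduct.inl_aut, ← map_inv, ← map_mul, ← map_mul, SemidirectProduct.left_inl]
      simp [act_apply]
    by_contra hne
    have h1 : (g.right : R) - 1 ≠ 0 := fun e => hne (Units.ext (sub_eq_zero.mp e))
    refine hψ h1 (AddChar.ext _ _ fun x => ?_)
    rw [AddChar.mulShift_apply, sub_mul, one_mul, AddChar.map_sub_eq_div, h, AddChar.one_apply]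
    exact div_self (ψ.val_isUnit x).ne_zero
  · rw [Ind.indFun_one, Subgroup.index_ker,
      MonoidHom.range_eq_top.mpr SemidirectProduct.rightHom_surjective]
    simp

/-- a solvable group of order 6048 -/
abbrev HH : Type := Aff (GaloisField 2 3) × Aff (ZMod 9) × Multiplicative (ZMod 2)

theorem card8 : Nat.card (GaloisField 2 3) = 8 := GaloisField.card 2 3 (by norm_num)

theorem cardu8 : Nat.card (GaloisField 2 3)ˣ = 7 := by rw [Nat.card_units, card8]

theorem cardu9 : Nat.card (ZMod 9)ˣ = 6 := by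
  rw [Nat.card_eq_fintype_card, ZMod.card_units_eq_totient]; decide

theorem card_HH : Nat.card HH = 6048 := by
  rw [Nat.card_prod, Nat.card_prod, card_aff, card_aff, card8, cardu8, cardu9]; simp

theorem solv_HH : Group.IsSolvable HH := by
  have := solv (R := GaloisField 2 3)
  have := solv (R := ZMod 9)
  infer_instance

theorem irr42 : ∃ χ : HH → ℂ, IsIrrCharacter HH χ ∧ χ 1 = (42 : ℕ) := by
  obtain ⟨a, ha, a1⟩ := exists_irr
    (AddChar.FiniteField.primitiveChar_to_Complex_isPrimitive (GaloisField 2 3))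
  obtain ⟨b, hb, b1⟩ := exists_irr (ZMod.isPrimitive_stdAddChar 9)
  have : Finite (Aff (GaloisField 2 3)) := Finite.of_equiv _ SemidirectProduct.equivProd.symm
  have : Finite (Aff (ZMod 9)) := Finite.of_equiv _ SemidirectProduct.equivProd.symm
  refine ⟨_, isIrr_prod_mul ha (isIrr_prod_mul hb (isIrr_one (G := Multiplicative (ZMod 2)))), ?_⟩
  simp only [Prod.fst_one, Prod.snd_one, a1, b1, cardu8, cardu9]
  norm_num

section
variable {G : Type*} [Group G]

theorem mem_degs {χ : G → ℂ} (h : IsIrrCharacter G χ) {d : ℕ} (hd : χ 1 = d) :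
    d ∈ charDegrees G := ⟨⟨χ, h⟩, by simp [charDegree, hd]⟩

theorem degs_dvd [Finite G] {d : ℕ} (hd : d ∈ charDegrees G) : d ∣ Nat.card G := by
  obtain ⟨χ, rfl⟩ := hd
  obtain ⟨n, -, hn, e⟩ := isIrr_degree' χ.2
  simpa [charDegree, e] using hn

theorem prime_cases {p : ℕ} (hp : p.Prime) (h : p ∣ 6048) : p = 2 ∨ p = 3 ∨ p = 7 := by
  rw [show 6048 = 2 ^ 5 * (3 ^ 3 * 7) by norm_num, hp.dvd_mul, hp.dvd_mul] at h
  rcases h with h | h | h
  · exact Or.inl ((Nat.prime_dvd_prime_iff_eq hp Nat.prime_two).mp (hp.dvd_of_dvd_pow h))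
  · exact Or.inr (Or.inl ((Nat.prime_dvd_prime_iff_eq hp Nat.prime_three).mp (hp.dvd_of_dvd_pow h)))
  · exact Or.inr (Or.inr ((Nat.prime_dvd_prime_iff_eq hp (by norm_num)).mp h))

/-- the degree graph is complete on `2, 3, 7` -/
def Full (G : Type*) [Group G] : Prop :=
  (∃ d ∈ charDegrees G, 6 ∣ d) ∧ (∃ d ∈ charDegrees G, 14 ∣ d) ∧ ∃ d ∈ charDegrees G, 21 ∣ d

theorem primes_eq [Finite G] (hc : Nat.card G = 6048) (h : Full G) :
    degreePrimes G = {p | p = 2 ∨ p = 3 ∨ p = 7} := by
  obtain ⟨⟨a, ha, a1⟩, ⟨b, hb, b1⟩, -⟩ := h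
  ext p
  constructor
  · rintro ⟨hp, d, hd, e⟩
    exact prime_cases hp (hc ▸ e.trans (degs_dvd hd))
  · rintro (rfl | rfl | rfl)
    · exact ⟨by norm_num, a, ha, (by norm_num : 2 ∣ 6).trans a1⟩
    · exact ⟨by norm_num, a, ha, (by norm_num : 3 ∣ 6).trans a1⟩
    · exact ⟨by norm_num, b, hb, (by norm_num : 7 ∣ 14).trans b1⟩

theorem adj_iff [Finite G] (hc : Nat.card G = 6048) (h : Full G) (p q : ℕ) :
    (degreeGraph G).Adj p q ↔ p ≠ q ∧ (p = 2 ∨ p = 3 ∨ p = 7) ∧ (q = 2 ∨ q = 3 ∨ q = 7) := by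
  obtain ⟨h1, h2, h3⟩ := h
  constructor
  · rintro ⟨hne, hp, hq, d, hd, e⟩
    have := hc ▸ e.trans (degs_dvd hd)
    exact ⟨hne, prime_cases hp ((Dvd.intro _ rfl).trans this),
      prime_cases hq ((Dvd.intro_left _ rfl).trans this)⟩
  · rintro ⟨hne, rfl | rfl | rfl, rfl | rfl | rfl⟩ <;>
      first
        | exact absurd rfl hne
        | exact ⟨hne, by norm_num, by norm_num, by first | exact h1 | exact h2 | exact h3⟩

theorem same {G' : Type*} [Group G'] [Finite G] [Finite G'] (hc : Nat.card G = 6048) (h : Full G)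
    (hc' : Nat.card G' = 6048) (h' : Full G') :
    degreePrimes G = degreePrimes G' ∧ degreeGraph G = degreeGraph G' :=
  ⟨by rw [primes_eq hc h, primes_eq hc' h'], by
    ext p q; rw [adj_iff hc h, adj_iff hc' h']⟩

end

theorem full_HH : Full HH := by
  obtain ⟨χ, h, e⟩ := irr42
  exact ⟨⟨42, mem_degs h e, by norm_num⟩, ⟨42, mem_degs h e, by norm_num⟩,
    ⟨42, mem_degs h e, by norm_num⟩⟩

end Cfsg.Agent.LeU.Agl
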