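import Mathlib

set_option autoImplicit false

namespace Cfsg.Agent.LeU.Inv2

open Subgroup

section ci
variable {X : Type*} [Group X]

/-- size of the conjugacy class -/
noncomputable def ci (x : X) : ℕ := (centralizer ({x} : Set X)).index

theorem ci_mul [Finite X] (x y : X) : ci (x * y) ≤ ci x * ci y := by
  refine le_trans (index_antitone ?_) index_inf_le
  intro g hg
  rw [mem_inf, mem_centralizer_singleton_iff, mem_centralizer_singleton_iff] at hg
  rw [mem_centralizer_singleton_iff, ← mul_assoc, hg.1, mul_assoc, hg.2, mul_assoc]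

theorem ci_inv (x : X) : ci x⁻¹ = ci x := by
  unfold ci
  congr 1
  ext g
  rw [mem_centralizer_singleton_iff, mem_centralizer_singleton_iff]
  exact Commute.inv_right_iff (a := g) (b := x)

theorem ci_one : ci (1 : X) = 1 := by
  unfold ci
  rw [index_eq_one, eq_top_iff]
  intro g _
  rw [mem_centralizer_singleton_iff, mul_one, one_mul]

theorem ci_aut (φ : X ≃* X) (x : X) : ci (φ x) = ci x := by
  unfold ci
  rw [← index_comap_of_surjective (centralizer ({φ x} : Set X)) (f := φ.toMonoidHom) φ.surjective]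
  congr 1
  ext g
  rw [mem_comap, mem_centralizer_singleton_iff, mem_centralizer_singleton_iff]
  show φ g * φ x = φ x * φ g ↔ _
  rw [← map_mul, ← map_mul, φ.injective.eq_iff]

theorem ci_card (x : X) : Nat.card (centralizer ({x} : Set X)) * ci x = Nat.card X :=
  card_mul_index _

end ci

section count
variable {X : Type*} [Group X] [Fintype X] [DecidableEq X]

theorem cnt1 (α : X ≃* X) (h2 : ∀ x, α (α x) = x) (n : ℕ)
    (hn : (Finset.univ.filter (fun x => α x = x)).card ≤ n) :
    Fintype.card X ≤ n * (Finset.univ.filter (fun s => α s = s⁻¹)).card := by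
  rw [← Finset.card_univ]
  refine Finset.card_le_mul_card_image_of_maps_to (f := fun x => x * (α x)⁻¹) ?_ n ?_
  · intro x _
    simp [h2]
  · intro b _
    rcases (Finset.univ.filter (fun x => x * (α x)⁻¹ = b)).eq_empty_or_nonempty with h | ⟨x0, hx0⟩
    · rw [h]; simp
    · refine le_trans (Finset.card_le_card_of_injOn (fun x => x0⁻¹ * x) ?_ ?_) hn
      · intro x hx
        simp only [Finset.coe_filter, Finset.mem_univ, true_and, Set.mem_setOf_eq,
          Finset.mem_filter] at hx hx0 ⊢
        have e : x * (α x)⁻¹ = x0 * (α x0)⁻¹ := hx.trans hx0.symm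
        rw [map_mul, map_inv]
        calc (α x0)⁻¹ * α x = x0⁻¹ * (x0 * (α x0)⁻¹) * α x := by group
          _ = x0⁻¹ * x := by rw [← e]; group
      · intro x _ y _ h
        exact mul_left_cancel h

theorem cnt2 (α : X ≃* X) :
    (Finset.univ.filter (fun s => α s = s⁻¹)).card ^ 2 ≤
      ∑ x : X, Nat.card (centralizer ({x} : Set X)) := by
  classical
  set I := Finset.univ.filter (fun s => α s = s⁻¹) with hI
  rw [pow_two, ← Finset.card_product,
    Finset.card_eq_sum_card_fiberwise (f := fun p : X × X => p.1 * p.2⁻¹) (t := Finset.univ)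
      (fun _ _ => Finset.mem_univ _)]
  refine Finset.sum_le_sum fun x _ => ?_
  rcases ((I ×ˢ I).filter (fun p : X × X => p.1 * p.2⁻¹ = x)).eq_empty_or_nonempty with h | ⟨p0, hp0⟩
  · rw [h]; simp
  have key : ∀ p ∈ (I ×ˢ I).filter (fun p : X × X => p.1 * p.2⁻¹ = x),
      p.1 * α x * p.1⁻¹ = x⁻¹ ∧ p.1 * p.2⁻¹ = x := by
    intro p hp
    simp only [hI, Finset.mem_filter, Finset.mem_product, Finset.mem_univ, true_and] at hp
    refine ⟨?_, hp.2⟩
    rw [← hp.2, map_mul, map_inv, hp.1.1, hp.1.2]
    group
  have e : Nat.card (centralizer ({x} : Set X)) =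
      (Finset.univ.filter (fun g => g ∈ centralizer ({x} : Set X))).card := by
    rw [Nat.card_eq_fintype_card, Fintype.card_subtype]
  rw [e]
  refine Finset.card_le_card_of_injOn (fun p => p.1 * p0.1⁻¹) ?_ ?_
  · intro p hp
    have h1 := (key p hp).1
    have h0 := (key p0 hp0).1
    simp only [Finset.coe_filter, Finset.mem_univ, true_and, Set.mem_setOf_eq]
    rw [mem_centralizer_singleton_iff]
    have h3 : Commute (p.1 * p0.1⁻¹) x⁻¹ := by
      show p.1 * p0.1⁻¹ * x⁻¹ = x⁻¹ * (p.1 * p0.1⁻¹)
      calc p.1 * p0.1⁻¹ * x⁻¹ = p.1 * p0.1⁻¹ * (p0.1 * α x * p0.1⁻¹) := by rw [h0]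
        _ = (p.1 * α x * p.1⁻¹) * (p.1 * p0.1⁻¹) := by group
        _ = _ := by rw [h1]
    exact Commute.inv_right_iff.1 h3
  · intro p hp q hq h
    have h1 : p.1 = q.1 := mul_right_cancel h
    have h2 := (key p hp).2.trans (key q hq).2.symm
    rw [h1] at h2
    exact Prod.ext h1 (inv_injective (mul_left_cancel h2))

theorem cnt3 (K : ℕ) :
    K * ∑ x : X, Nat.card (centralizer ({x} : Set X)) ≤
      K * Fintype.card X * (Finset.univ.filter (fun x : X => ci x ≤ K)).card +
        Fintype.card X * Fintype.card X := by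
  rw [Finset.mul_sum]
  have h : ∀ x : X, K * Nat.card (centralizer ({x} : Set X)) ≤
      (if ci x ≤ K then K * Fintype.card X else 0) + Fintype.card X := by
    intro x
    have h1 := ci_card x
    rw [Nat.card_eq_fintype_card (α := X)] at h1
    split_ifs with h
    · have h2 : Nat.card (centralizer ({x} : Set X)) ≤ Fintype.card X := by
        rw [← Nat.card_eq_fintype_card]; exact card_le_card_group _
      exact le_trans (Nat.mul_le_mul_left _ h2) (Nat.le_add_right _ _)
    · rw [zero_add, ← h1, mul_comm]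
      exact Nat.mul_le_mul_left _ (by omega)
  refine le_trans (Finset.sum_le_sum fun x _ => h x) ?_
  rw [Finset.sum_add_distrib, ← Finset.sum_filter, Finset.sum_const, Finset.sum_const,
    Finset.card_univ, smul_eq_mul, smul_eq_mul, mul_comm (Finset.card _)]

theorem cnt4 (α : X ≃* X) (h2 : ∀ x, α (α x) = x) (n : ℕ) (n0 : 0 < n)
    (hn : (Finset.univ.filter (fun x => α x = x)).card ≤ n) :
    Fintype.card X ≤ 2 * n ^ 2 * (Finset.univ.filter (fun x : X => ci x ≤ 2 * n ^ 2)).card := by
  have h1 := cnt1 α h2 n hn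
  have h3 := cnt2 α
  have h4 := cnt3 (X := X) (2 * n ^ 2)
  generalize (Finset.univ.filter (fun x : X => ci x ≤ 2 * n ^ 2)).card = B at *
  generalize (Finset.univ.filter (fun s => α s = s⁻¹)).card = I at *
  generalize ∑ x : X, Nat.card (centralizer ({x} : Set X)) = S at *
  have hN : 0 < Fintype.card X := Fintype.card_pos
  generalize Fintype.card X = N at *
  have h5 : N * N ≤ n ^ 2 * S := by
    calc N * N ≤ (n * I) * (n * I) := Nat.mul_le_mul h1 h1
      _ = n ^ 2 * I ^ 2 := by ring
      _ ≤ _ := Nat.mul_le_mul_left _ h3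
  have h6 : N * N ≤ N * (2 * n ^ 2 * B) := by
    have : 2 * (N * N) ≤ 2 * n ^ 2 * N * B + N * N := by
      calc 2 * (N * N) ≤ 2 * (n ^ 2 * S) := Nat.mul_le_mul_left _ h5
        _ = 2 * n ^ 2 * S := by ring
        _ ≤ _ := h4
    have e : 2 * n ^ 2 * N * B = N * (2 * n ^ 2 * B) := by ring
    omega
  exact Nat.le_of_mul_le_mul_left h6 hN

theorem grow (K i : ℕ)
    (h : ∀ j < 3 * i, ¬ (Finset.univ.filter (fun x : X => ci x ≤ K ^ (j + 1)) ⊆
      Finset.univ.filter (fun x : X => ci x ≤ K ^ j))) (K0 : 0 < K) :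
    i * (Finset.univ.filter (fun x : X => ci x ≤ K)).card ≤
      (Finset.univ.filter (fun x : X => ci x ≤ K ^ (3 * i))).card := by
  induction i with
  | zero => simp
  | succ i ih =>
    have h1 := ih (fun j hj => h j (by omega))
    obtain ⟨g, hg1, hg2⟩ := Finset.not_subset.1 (h (3 * i + 1) (by omega))
    simp only [Finset.mem_filter, Finset.mem_univ, true_and] at hg1 hg2
    set B := Finset.univ.filter (fun x : X => ci x ≤ K) with hB
    have hd : Disjoint (Finset.univ.filter (fun x : X => ci x ≤ K ^ (3 * i)))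
        (B.image (fun b => g * b)) := by
      rw [Finset.disjoint_left]
      intro x hx hx'
      obtain ⟨b, hb, rfl⟩ := Finset.mem_image.1 hx'
      simp only [hB, Finset.mem_filter, Finset.mem_univ, true_and] at hx hb
      apply hg2
      calc ci g = ci (g * b * b⁻¹) := by rw [mul_inv_cancel_right]
        _ ≤ ci (g * b) * ci b⁻¹ := ci_mul _ _
        _ ≤ K ^ (3 * i) * K := Nat.mul_le_mul hx (by rw [ci_inv]; exact hb)
        _ = _ := by rw [pow_succ]
    have hs : Finset.univ.filter (fun x : X => ci x ≤ K ^ (3 * i)) ∪ B.image (fun b => g * b) ⊆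
        Finset.univ.filter (fun x : X => ci x ≤ K ^ (3 * (i + 1))) := by
      intro x hx
      simp only [Finset.mem_filter, Finset.mem_univ, true_and]
      rcases Finset.mem_union.1 hx with hx | hx
      · simp only [Finset.mem_filter, Finset.mem_univ, true_and] at hx
        exact hx.trans (Nat.pow_le_pow_right K0 (by omega))
      · obtain ⟨b, hb, rfl⟩ := Finset.mem_image.1 hx
        simp only [hB, Finset.mem_filter, Finset.mem_univ, true_and] at hb
        calc ci (g * b) ≤ ci g * ci b := ci_mul _ _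
          _ ≤ K ^ (3 * i + 1 + 1) * K := Nat.mul_le_mul hg1 hb
          _ = _ := by rw [← pow_succ]; congr 1
    have h3 := Finset.card_le_card hs
    rw [Finset.card_union_of_disjoint hd,
      Finset.card_image_of_injective _ (mul_right_injective g)] at h3
    rw [add_mul, one_mul]
    omega

theorem closure_ci (K : ℕ) (K0 : 0 < K)
    (hK : Fintype.card X ≤ K * (Finset.univ.filter (fun x : X => ci x ≤ K)).card) :
    ∀ x ∈ closure {x : X | ci x ≤ K}, ci x ≤ K ^ (3 * (K + 1)) := by
  have hB : 0 < (Finset.univ.filter (fun x : X => ci x ≤ K)).card :=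
    Finset.card_pos.2 ⟨1, by simp only [Finset.mem_filter, Finset.mem_univ, true_and, ci_one]; omega⟩
  have : ∃ j < 3 * (K + 1), (Finset.univ.filter (fun x : X => ci x ≤ K ^ (j + 1)) ⊆
      Finset.univ.filter (fun x : X => ci x ≤ K ^ j)) := by
    by_contra hc
    push Not at hc
    have h1 := grow K (K + 1) hc K0
    have h2 : (Finset.univ.filter (fun x : X => ci x ≤ K ^ (3 * (K + 1)))).card ≤ Fintype.card X :=
      Finset.card_le_univ _
    rw [add_mul, one_mul] at h1
    omega
  obtain ⟨j, hj, hs⟩ := this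
  have hs' : ∀ x : X, ci x ≤ K ^ (j + 1) → ci x ≤ K ^ j := fun x hx => by
    have := hs (Finset.mem_filter.2 ⟨Finset.mem_univ x, hx⟩)
    exact (Finset.mem_filter.1 this).2
  intro x hx
  refine le_trans ?_ (Nat.pow_le_pow_right K0 hj.le)
  induction hx using closure_induction_right with
  | one => rw [ci_one]; exact Nat.pow_pos K0
  | mul_right x _ y hy ih =>
    exact hs' _ ((ci_mul _ _).trans (by rw [pow_succ]; exact Nat.mul_le_mul ih hy))
  | mul_inv_cancel x _ y hy ih =>
    exact hs' _ ((ci_mul _ _).trans (by rw [pow_succ, ci_inv]; exact Nat.mul_le_mul ih hy))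

theorem closure_index (K : ℕ)
    (hK : Fintype.card X ≤ K * (Finset.univ.filter (fun x : X => ci x ≤ K)).card) :
    (closure {x : X | ci x ≤ K}).index ≤ K := by
  classical
  set T := closure {x : X | ci x ≤ K} with hT
  have h1 : (Finset.univ.filter (fun x : X => ci x ≤ K)).card ≤ Nat.card T := by
    rw [Nat.card_eq_fintype_card, Fintype.card_subtype]
    refine Finset.card_le_card fun x hx => ?_
    simp only [Finset.mem_filter, Finset.mem_univ, true_and] at hx ⊢
    exact subset_closure hx
  have h2 := T.card_mul_index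
  rw [Nat.card_eq_fintype_card (α := X)] at h2
  have h3 : Nat.card T * T.index ≤ Nat.card T * K := by
    rw [h2, mul_comm]
    exact hK.trans (Nat.mul_le_mul_left _ h1)
  exact Nat.le_of_mul_le_mul_left h3 Nat.card_pos

end count

end Cfsg.Agent.LeU.Inv2
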