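import Mathlib
import Cfsg.Agent.LeU.Inv2

set_option autoImplicit false

namespace Cfsg.Agent.LeU.Inv2

open Subgroup
open scoped commutatorElement

theorem card_le_comm (Y : Type*) [Group Y] [Finite Y] (hc : ∀ a b : Y, a * b = b * a) (e : ℕ)
    (e0 : 0 < e) (he : ∀ y : Y, y ^ e = 1) (r : ℕ) (hr : Group.rank Y ≤ r) :
    Nat.card Y ≤ e ^ r := by
  letI : CommGroup Y := { (inferInstance : Group Y) with mul_comm := hc }
  exact (Nat.le_of_dvd (Nat.pow_pos e0) (card_dvd_exponent_pow_rank' Y he)).trans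
    (Nat.pow_le_pow_right e0 hr)

theorem card_commSet (Y : Type*) [Group Y] [Finite Y] :
    Nat.card (commutatorSet Y) ≤ (center Y).index * (center Y).index := by
  rw [index, ← Nat.card_prod]
  refine Nat.card_le_card_of_surjective
    (fun p : (Y ⧸ center Y) × (Y ⧸ center Y) =>
      (⟨⁅p.1.out, p.2.out⁆, commutator_mem_commutatorSet _ _⟩ : commutatorSet Y)) ?_
  rintro ⟨_, a, b, rfl⟩
  refine ⟨((a : Y ⧸ center Y), (b : Y ⧸ center Y)), Subtype.ext ?_⟩
  obtain ⟨z, hz⟩ := QuotientGroup.mk_out_eq_mul (center Y) a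
  obtain ⟨w, hw⟩ := QuotientGroup.mk_out_eq_mul (center Y) b
  show ⁅(QuotientGroup.mk a : Y ⧸ center Y).out, (QuotientGroup.mk b : Y ⧸ center Y).out⁆ = ⁅a, b⁆
  rw [hz, hw, commutatorElement_def, commutatorElement_def]
  have h1 := fun g => mem_center_iff.1 z.2 g
  have h2 := fun g => mem_center_iff.1 w.2 g
  calc a * z * (b * w) * (a * z)⁻¹ * (b * w)⁻¹
      = a * (z * (b * w)) * (z : Y)⁻¹ * a⁻¹ * (b * w)⁻¹ := by group
    _ = a * b * (w * a⁻¹) * (b * w)⁻¹ := by rw [← h1]; group
    _ = _ := by rw [← h2]; group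

theorem schur (Y : Type*) [Group Y] [Finite Y] (S : Finset Y) (hS : closure (S : Set Y) = ⊤)
    (m e b : ℕ) (hm : S.card ≤ m) (e0 : 0 < e) (he : ∀ s ∈ S, s ^ e = 1)
    (hb : (center Y).index ≤ b) : Nat.card Y ≤ b ^ (b * (b * b) + 1) * e ^ m := by
  have i0 : 0 < (center Y).index := Nat.pos_of_ne_zero FiniteIndex.index_ne_zero
  have h1 : Nat.card (commutator Y) ≤ b ^ (b * (b * b) + 1) := by
    refine (Nat.le_of_dvd (Nat.pow_pos i0) (card_commutator_dvd_index_center_pow Y)).trans ?_
    refine (Nat.pow_le_pow_left hb _).trans (Nat.pow_le_pow_right (by omega) ?_)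
    exact Nat.succ_le_succ (Nat.mul_le_mul hb ((card_commSet Y).trans (Nat.mul_le_mul hb hb)))
  have hs : Function.Surjective (Abelianization.of : Y →* Abelianization Y) :=
    QuotientGroup.mk_surjective
  haveI : Finite (Abelianization Y) := Finite.of_surjective _ hs
  have h2 : Nat.card (Abelianization Y) ≤ e ^ m := by
    refine card_le_comm _ mul_comm e e0 ?_ m
      ((Group.rank_le_of_surjective _ hs).trans ((Group.rank_le hS).trans hm))
    intro y
    obtain ⟨y, rfl⟩ := hs y
    have : closure (S : Set Y) ≤ ((powMonoidHom e).comp Abelianization.of).ker := by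
      rw [closure_le]
      intro s hs
      show (Abelianization.of s) ^ e = 1
      rw [← map_pow, he s hs, map_one]
    exact this (hS ▸ mem_top y)
  rw [← (commutator Y).card_mul_index]
  exact Nat.mul_le_mul h1 h2

theorem index_center_le (X : Type*) [Group X] [Finite X] (α : X ≃* X) (h2 : ∀ x, α (α x) = x)
    (hG : closure (Set.range (fun c : X => c * (α c)⁻¹)) = ⊤) (n m i : ℕ)
    (hn : Nat.card (α.toMonoidHom.eqLocus (MonoidHom.id X)) ≤ n) (hm : Group.rank X ≤ m)
    (A : Subgroup X) [A.Characteristic] (hA : ∀ a ∈ A, ∀ b ∈ A, a * b = b * a) (hi : A.index ≤ i) :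
    (center X).index ≤ n.factorial ^ (i * m) * i := by
  have hα : ∀ a ∈ A, α a ∈ A := fun a ha => characteristic_iff_le_comap.1 inferInstance α ha
  have k1 : ∀ a ∈ A, α (a ^ n.factorial) = (a ^ n.factorial)⁻¹ := by
    intro a ha
    have hc : Commute a (α a) := hA a ha _ (hα a ha)
    have h3 : a * α a ∈ α.toMonoidHom.eqLocus (MonoidHom.id X) := by
      show α (a * α a) = a * α a
      rw [map_mul, h2, hc.eq]
    have h4 : (a * α a) ^ n.factorial = 1 := by
      obtain ⟨k, hk⟩ := Nat.dvd_factorial Nat.card_pos hn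
      have := congrArg Subtype.val
        (pow_card_eq_one' (x := (⟨_, h3⟩ : α.toMonoidHom.eqLocus (MonoidHom.id X))))
      rw [hk, pow_mul]
      simp only [SubmonoidClass.mk_pow, OneMemClass.coe_one] at this
      rw [this, one_pow]
    rw [hc.mul_pow, ← map_pow] at h4
    exact (inv_eq_of_mul_eq_one_right h4).symm
  have k2 : ∀ a ∈ A, a ^ n.factorial ∈ center X := by
    intro a ha
    have : closure (Set.range (fun c : X => c * (α c)⁻¹)) ≤ centralizer {(a ^ n.factorial)⁻¹} := by
      rw [closure_le]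
      rintro _ ⟨c, rfl⟩
      have h3 := k1 _ ((inferInstance : A.Normal).conj_mem' a ha c)
      have e : (c⁻¹ * a * c) ^ n.factorial = c⁻¹ * a ^ n.factorial * c := by
        simpa using conj_pow (a := c⁻¹) (b := a) (i := n.factorial)
      rw [e, map_mul, map_mul, map_inv, k1 a ha] at h3
      refine mem_centralizer_singleton_iff.2 ?_
      show c * (α c)⁻¹ * (a ^ n.factorial)⁻¹ = (a ^ n.factorial)⁻¹ * (c * (α c)⁻¹)
      calc c * (α c)⁻¹ * (a ^ n.factorial)⁻¹
          = c * ((α c)⁻¹ * (a ^ n.factorial)⁻¹ * α c) * (α c)⁻¹ := by group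
        _ = _ := by rw [h3]; group
    rw [← inv_mem_iff, mem_center_iff]
    intro g
    exact mem_centralizer_singleton_iff.1 (this (hG ▸ mem_top g))
  set π := QuotientGroup.mk' (center X) with hπ
  have hs : Function.Surjective π := QuotientGroup.mk'_surjective _
  have h5 : (A.map π).index ≤ i :=
    (Nat.le_of_dvd (Nat.pos_of_ne_zero FiniteIndex.index_ne_zero) (index_map_dvd A hs)).trans hi
  have h6 : Nat.card (A.map π) ≤ n.factorial ^ (i * m) := by
    refine card_le_comm _ ?_ _ (Nat.factorial_pos n) ?_ _ ?_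
    · rintro ⟨_, a, ha, rfl⟩ ⟨_, b, hb, rfl⟩
      refine Subtype.ext ?_
      show π a * π b = π b * π a
      rw [← map_mul, hA a ha b hb, map_mul]
    · rintro ⟨_, a, ha, rfl⟩
      refine Subtype.ext ?_
      show π a ^ n.factorial = 1
      rw [← map_pow]
      exact (QuotientGroup.eq_one_iff _).2 (k2 a ha)
    · refine (Group.rank_le_of_surjective (π.subgroupMap A) (π.subgroupMap_surjective A)).trans ?_
      exact (rank_le_index_mul_rank A).trans (Nat.mul_le_mul hi hm)
  show Nat.card (X ⧸ center X) ≤ _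
  rw [← (A.map π).card_mul_index]
  exact Nat.mul_le_mul h6 h5

theorem exists_abelian (X : Type*) [Group X] [Finite X] (α : X ≃* X) (h2 : ∀ x, α (α x) = x)
    (n m : ℕ) (hn : Nat.card (α.toMonoidHom.eqLocus (MonoidHom.id X)) ≤ n) (hm : Group.rank X ≤ m) :
    ∃ A : Subgroup X, A.Characteristic ∧ (∀ a ∈ A, ∀ b ∈ A, a * b = b * a) ∧
      A.index ≤ 2 * n ^ 2 * ((2 * n ^ 2) ^ (3 * (2 * n ^ 2 + 1))) ^ (2 * n ^ 2 * m) := by
  classical
  haveI := Fintype.ofFinite X
  have n0 : 0 < n := lt_of_lt_of_le Nat.card_pos hn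
  have hn' : (Finset.univ.filter (fun x => α x = x)).card ≤ n := by
    rw [Nat.card_eq_fintype_card, Fintype.card_subtype] at hn
    exact le_of_eq_of_le (by congr 1) hn
  have hK := cnt4 α h2 n n0 hn'
  generalize hKd : 2 * n ^ 2 = K at *
  have K0 : 0 < K := by rw [← hKd]; positivity
  have h3 := closure_ci K K0 hK
  have h4 := closure_index K hK
  set T := closure {x : X | ci x ≤ K} with hT
  haveI hTc : T.Characteristic := by
    refine characteristic_iff_le_comap.2 fun φ => ?_
    rw [hT, closure_le]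
    intro x hx
    exact subset_closure (show ci (φ x) ≤ K by rw [ci_aut]; exact hx)
  refine ⟨T ⊓ centralizer (T : Set X), ?_, ?_, ?_⟩
  · refine characteristic_iff_le_comap.2 fun φ x hx => ⟨?_, ?_⟩
    · exact characteristic_iff_le_comap.1 hTc φ hx.1
    · exact characteristic_iff_le_comap.1 (inferInstance : (centralizer (T : Set X)).Characteristic)
        φ hx.2
  · intro a ha b hb
    exact hb.2 a ha.1
  · refine index_inf_le.trans (Nat.mul_le_mul h4 ?_)
    obtain ⟨S, hS1, hS2⟩ := Group.rank_spec T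
    have h5 : S.card ≤ K * m :=
      hS1.trans_le ((rank_le_index_mul_rank T).trans (Nat.mul_le_mul h4 hm))
    have h6 : (⨅ s : S, centralizer ({((s : T) : X)} : Set X)) ≤ centralizer (T : Set X) := by
      intro g hg t ht
      have : closure (S : Set T) ≤ (centralizer ({g} : Set X)).comap T.subtype := by
        rw [closure_le]
        intro s hs
        exact mem_centralizer_singleton_iff.2
          (mem_centralizer_singleton_iff.1 (mem_iInf.1 hg ⟨s, hs⟩)).symm
      exact mem_centralizer_singleton_iff.1 (this (hS2 ▸ mem_top (⟨t, ht⟩ : T)))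
    refine (index_antitone h6).trans ((index_iInf_le _).trans ?_)
    refine (Finset.prod_le_pow_card (Finset.univ : Finset S) (fun s : S => ci ((s : T) : X))
      (K ^ (3 * (K + 1))) fun s _ => h3 _ (s : T).2).trans ?_
    refine Nat.pow_le_pow_right (Nat.pow_pos K0) ?_
    rw [Finset.card_univ, Fintype.card_coe]
    exact h5

theorem main (n m e : ℕ) (e0 : 0 < e) : ∃ b : ℕ, ∀ (X : Type) [Group X] [Finite X] (α : X ≃* X),
    (∀ x, α (α x) = x) → closure (Set.range (fun c : X => c * (α c)⁻¹)) = ⊤ →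
    Nat.card (α.toMonoidHom.eqLocus (MonoidHom.id X)) ≤ n →
    ∀ S : Finset X, closure (S : Set X) = ⊤ → S.card ≤ m → (∀ s ∈ S, s ^ e = 1) →
    Nat.card X ≤ b := by
  obtain ⟨i, hi⟩ : ∃ i, i = 2 * n ^ 2 * ((2 * n ^ 2) ^ (3 * (2 * n ^ 2 + 1))) ^ (2 * n ^ 2 * m) :=
    ⟨_, rfl⟩
  obtain ⟨b, hb⟩ : ∃ b, b = n.factorial ^ (i * m) * i := ⟨_, rfl⟩
  refine ⟨b ^ (b * (b * b) + 1) * e ^ m, fun X _ _ α h2 hG hn S hS hm he => ?_⟩
  have hr : Group.rank X ≤ m := (Group.rank_le hS).trans hm
  obtain ⟨A, hA1, hA2, hA3⟩ := exists_abelian X α h2 n m hn hr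
  exact schur X S hS m e b hm e0 he
    (hb ▸ index_center_le X α h2 hG n m i hn hr A hA2 (hi ▸ hA3))

end Cfsg.Agent.LeU.Inv2
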