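import Mathlib
import Cfsg.Agent.Comp.Mat
import Cfsg.Prelude.Def_Characters

/-! An irreducibility test for explicit matrix representations of presented groups. -/

set_option autoImplicit false

namespace Cfsg.Agent.LeU.Nort
open Cfsg.Agent.Comp Matrix

/-- explicit ring operations -/
structure Ops (R : Type) where
  mul : R → R → R
  add : R → R → R
  z : R
  o : R

variable {R : Type} (p : Ops R)

/-- scalar product of lists -/
noncomputable def dot (r : List R) : List R → R :=
  @List.rec R (fun _ => List R → R) (fun _ => p.z)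
    (fun a _ ih v => @List.rec R (fun _ => R) p.z (fun b v' _ => p.add (p.mul a b) (ih v')) v) r

/-- matrix times vector -/
noncomputable def mv (X : List (List R)) (v : List R) : List R :=
  @List.rec (List R) (fun _ => List R) [] (fun r _ ih => dot p r v :: ih) X

/-- a word applied to a vector -/
noncomputable def app (M : List (List (List R))) (w : List ℕ) (v : List R) : List R :=
  @List.rec ℕ (fun _ => List R) v (fun x _ ih => mv p (M.getD x []) ih) w

/-- `c u + v` -/
noncomputable def axp (c : R) (u : List R) : List R → List R :=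
  @List.rec R (fun _ => List R → List R) (fun v => v)
    (fun a _ ih v => @List.rec R (fun _ => List R) (p.mul c a :: ih [])
      (fun b v' _ => p.add (p.mul c a) b :: ih v') v) u

/-- a linear combination of words applied to a vector -/
noncomputable def lc (M : List (List (List R))) (L : List (R × List ℕ)) (v : List R) : List R :=
  @List.rec (R × List ℕ) (fun _ => List R) [] (fun q _ ih => axp p q.1 (app p M q.2 v) ih) L

/-- a product of linear combinations applied to a vector -/
noncomputable def pp (M : List (List (List R))) (P : List (List (R × List ℕ))) (v : List R) :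
    List R :=
  @List.rec (List (R × List ℕ)) (fun _ => List R) v (fun L _ ih => lc p M L ih) P

/-- a basis vector -/
def bv (n j : ℕ) : List R := (List.range n).map fun i => if i = j then p.o else p.z

/-- the operations agree with those of the complex numbers -/
structure Hom (f : R → ℂ) : Prop where
  mul : ∀ a b, f (p.mul a b) = f a * f b
  add : ∀ a b, f (p.add a b) = f a + f b
  z : f p.z = 0
  o : f p.o = 1

variable (f : R → ℂ) (n : ℕ)

/-- the complex vector of a list -/
def vC (v : List R) : Fin n → ℂ := fun i => f (v.getD i p.z)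

/-- the complex matrix of a list -/
def mC (X : List (List R)) : Matrix (Fin n) (Fin n) ℂ :=
  Matrix.of fun i j => f ((X.getD i []).getD j p.z)

/-- the complex matrices of the letters -/
def sC (M : List (List (List R))) (x : ℕ) : Matrix (Fin n) (Fin n) ℂ := mC p f n (M.getD x [])

/-- the matrix of a linear combination of words -/
def lcM (M : List (List (List R))) (L : List (R × List ℕ)) : Matrix (Fin n) (Fin n) ℂ :=
  (L.map fun q => f q.1 • ev (sC p f n M) q.2).sum

variable {p f n}

theorem dot_eq (h : Hom p f) : ∀ (r v : List R) (n : ℕ), r.length ≤ n →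
    f (dot p r v) = ∑ j ∈ Finset.range n, f (r.getD j p.z) * f (v.getD j p.z)
  | [], v, n, _ => by
    show f p.z = _
    simp [h.z]
  | a :: r, [], n, _ => by
    show f p.z = _
    simp [h.z]
  | a :: r, b :: v, 0, hn => by simp at hn
  | a :: r, b :: v, n + 1, hn => by
    show f (p.add (p.mul a b) (dot p r v)) = _
    rw [Finset.sum_range_succ', h.add, h.mul, dot_eq h r v n (by simpa using hn), add_comm]
    simp

theorem mv_get (h : Hom p f) (v : List R) : ∀ (X : List (List R)) (i : ℕ),
    f ((mv p X v).getD i p.z) = f (dot p (X.getD i []) v)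
  | [], i => by
    show f (([] : List R).getD i p.z) = _
    rw [List.getD_nil, List.getD_nil]; rfl
  | r :: X, 0 => rfl
  | r :: X, i + 1 => by
    show f ((dot p r v :: mv p X v).getD (i + 1) p.z) = _
    rw [List.getD_cons_succ, List.getD_cons_succ, mv_get h v X i]

theorem vC_mv (h : Hom p f) {X : List (List R)} (hX : ∀ r ∈ X, r.length ≤ n) (v : List R) :
    vC p f n (mv p X v) = mC p f n X *ᵥ vC p f n v := by
  funext i
  have hl : (X.getD i []).length ≤ n := by
    rw [List.getD_eq_getElem?_getD]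
    cases e : X[(i : ℕ)]? with
    | none => simp
    | some r => exact hX r (List.mem_of_getElem? e)
  rw [vC, mv_get h, dot_eq h _ _ n hl, Finset.sum_range]
  rfl

/-- the rows are short enough -/
def Rows (n : ℕ) (M : List (List (List R))) : Prop := ∀ X ∈ M, ∀ r ∈ X, r.length ≤ n

theorem Rows.get {M : List (List (List R))} (hM : Rows n M) (x : ℕ) :
    ∀ r ∈ M.getD x [], r.length ≤ n := by
  rw [List.getD_eq_getElem?_getD]
  cases e : M[x]? with
  | none => simp
  | some X => exact hM X (List.mem_of_getElem? e)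

theorem vC_app (h : Hom p f) {M : List (List (List R))} (hM : Rows n M) (v : List R) :
    ∀ w : List ℕ, vC p f n (app p M w v) = ev (sC p f n M) w *ᵥ vC p f n v
  | [] => by rw [ev_nil, Matrix.one_mulVec]; rfl
  | x :: w => by
    show vC p f n (mv p (M.getD x []) (app p M w v)) = _
    rw [vC_mv h (hM.get x), vC_app h hM v w, ev_cons, Matrix.mulVec_mulVec]; rfl

theorem axp_get (h : Hom p f) (c : R) : ∀ (u v : List R) (i : ℕ),
    f ((axp p c u v).getD i p.z) = f c * f (u.getD i p.z) + f (v.getD i p.z)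
  | [], v, i => by
    show f (v.getD i p.z) = _
    simp [h.z]
  | a :: u, [], 0 => by
    show f (p.mul c a) = _
    simp [h.z, h.mul]
  | a :: u, [], i + 1 => by
    show f ((p.mul c a :: axp p c u []).getD (i + 1) p.z) = _
    rw [List.getD_cons_succ, axp_get h c u [] i]; simp
  | a :: u, b :: v, 0 => by
    show f (p.add (p.mul c a) b) = _
    simp [h.add, h.mul]
  | a :: u, b :: v, i + 1 => by
    show f ((p.add (p.mul c a) b :: axp p c u v).getD (i + 1) p.z) = _
    rw [List.getD_cons_succ, axp_get h c u v i]; simp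

theorem vC_lc (h : Hom p f) {M : List (List (List R))} (hM : Rows n M) (v : List R) :
    ∀ L : List (R × List ℕ), vC p f n (lc p M L v) = lcM p f n M L *ᵥ vC p f n v
  | [] => by
    funext i
    show f (([] : List R).getD i p.z) = _
    simp [lcM, h.z]
  | q :: L => by
    funext i
    show f ((axp p q.1 (app p M q.2 v) (lc p M L v)).getD i p.z) = _
    rw [axp_get h]
    have h1 := congrFun (vC_app h hM v q.2) i
    have h2 := congrFun (vC_lc h hM v L) i
    simp only [vC] at h1 h2
    rw [h1, h2, lcM, lcM, List.map_cons, List.sum_cons, Matrix.add_mulVec, Matrix.smul_mulVec]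
    rfl

theorem vC_pp (h : Hom p f) {M : List (List (List R))} (hM : Rows n M) (v : List R) :
    ∀ P : List (List (R × List ℕ)),
      vC p f n (pp p M P v) = (P.map (lcM p f n M)).prod *ᵥ vC p f n v
  | [] => by rw [List.map_nil, List.prod_nil, Matrix.one_mulVec]; rfl
  | L :: P => by
    show vC p f n (lc p M L (pp p M P v)) = _
    rw [vC_lc h hM, vC_pp h hM v P, List.map_cons, List.prod_cons, Matrix.mulVec_mulVec]

theorem vC_bv (h : Hom p f) (j : Fin n) : vC p f n (bv p n j) = Pi.single j 1 := by
  funext i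
  rw [vC, bv, List.getD_eq_getElem?_getD, List.getElem?_map, List.getElem?_range i.2]
  by_cases e : i = j
  · subst e; simp [h.o]
  · have : (i : ℕ) ≠ j := fun e' => e (Fin.ext e')
    simp [this, h.z, Pi.single_eq_of_ne e]

theorem sat_of (h : Hom p f) {M : List (List (List R))} (hM : Rows n M) {Rl : List (List ℕ)}
    (hr : ∀ w ∈ Rl, ∀ j < n, app p M w (bv p n j) = bv p n j) : Sat (sC p f n M) Rl := by
  intro w hw
  ext i j
  have := congrFun (vC_app h hM (bv p n j) w) i
  rw [hr w hw j j.2, vC_bv h, Matrix.mulVec_single_one] at this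
  rw [Matrix.one_apply, ← Pi.single_apply (M := ℂ), this]; rfl

/-- the matrices that keep a subspace -/
def keep (W : Submodule ℂ (Fin n → ℂ)) : Subalgebra ℂ (Matrix (Fin n) (Fin n) ℂ) where
  carrier := {X | ∀ v ∈ W, X *ᵥ v ∈ W}
  mul_mem' := fun {a b} ha hb v hv => by
    rw [← Matrix.mulVec_mulVec]; exact ha _ (hb v hv)
  add_mem' := fun {a b} ha hb v hv => by
    rw [Matrix.add_mulVec]; exact W.add_mem (ha v hv) (hb v hv)
  algebraMap_mem' := fun c v hv => by
    rw [Algebra.algebraMap_eq_smul_one, Matrix.smul_mulVec, Matrix.one_mulVec]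
    exact W.smul_mem c hv

theorem exists_irr {G : Type} [Group G] [Finite G] {s : ℕ → G} {L : ℕ} {Rl : List (List ℕ)}
    (hp : IsPres s L Rl) (hR : ∀ w ∈ Rl, ∀ x ∈ w, x < L)
    (hL : ∀ x < L, ∃ w ∈ Rl, w.head? = some x) (h : Hom p f) {m : ℕ}
    {M : List (List (List R))} (hM : Rows (m + 1) M) (hl : M.length ≤ L)
    (hr : Sat (sC p f (m + 1) M) Rl) {P : List (List (R × List ℕ))}
    (h1 : ∀ j < m + 1, (pp p M P (bv p (m + 1) j)).tail = List.replicate m p.z)
    (h2 : f ((pp p M P (bv p (m + 1) 0)).getD 0 p.z) ≠ 0) {Ws : List (List ℕ)}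
    (h3 : ∀ j < m + 1, app p M (Ws.getD j []) (bv p (m + 1) 0) = bv p (m + 1) j) :
    ∃ χ : G → ℂ, IsIrrCharacter G χ ∧ χ 1 = (m + 1 : ℕ) := by
  have hu := isUnit_of_sat hr hL
  obtain ⟨φ, hφ, -⟩ := hp.lift hR (glS (sC p f (m + 1) M)) (sat_glS hu hR hr)
  let ρ : Representation ℂ G (Fin (m + 1) → ℂ) :=
    (Matrix.toLinAlgEquiv' (R := ℂ) (n := Fin (m + 1))).toMonoidHom.comp
      ((Units.coeHom _).comp φ)
  have hρ : ∀ g v, ρ g v = (φ g : Matrix (Fin (m + 1)) (Fin (m + 1)) ℂ) *ᵥ v := fun g v =>
    Matrix.toLinAlgEquiv'_apply _ _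
  refine ⟨ρ.character, ⟨m + 1, ρ, ?_, rfl⟩, by rw [Representation.char_one]; simp⟩
  have hk : ∀ (W : Subrepresentation ρ) w, ev (sC p f (m + 1) M) w ∈ keep W.toSubmodule := by
    intro W w
    refine Subalgebra.list_prod_mem _ fun X hX => ?_
    obtain ⟨x, -, rfl⟩ := List.mem_map.mp hX
    by_cases hx : x < L
    · intro v hv
      have := W.apply_mem_toSubmodule (s x) hv
      rwa [hρ, hφ x hx, glS_val (hu x hx)] at this
    · have : sC p f (m + 1) M x = 0 := by
        ext i j
        simp [sC, mC, List.getD_eq_getElem?_getD, List.getElem?_eq_none (by omega : M.length ≤ x),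
          h.z]
      rw [this]; exact Subalgebra.zero_mem _
  set Q := (P.map (lcM p f (m + 1) M)).prod with hQ
  have hQk : ∀ W : Subrepresentation ρ, Q ∈ keep W.toSubmodule := by
    intro W
    refine Subalgebra.list_prod_mem _ fun X hX => ?_
    obtain ⟨l, -, rfl⟩ := List.mem_map.mp hX
    refine Subalgebra.list_sum_mem _ fun Y hY => ?_
    obtain ⟨q, -, rfl⟩ := List.mem_map.mp hY
    exact Subalgebra.smul_mem _ (hk W _) _
  have hQe : ∀ i j : Fin (m + 1), Q i j = f ((pp p M P (bv p (m + 1) j)).getD i p.z) := by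
    intro i j
    have := congrFun (vC_pp h hM (bv p (m + 1) j) P) i
    rw [vC_bv h, Matrix.mulVec_single_one] at this
    exact this.symm
  have hQ0 : ∀ (i : Fin m) j, Q i.succ j = 0 := by
    intro i j
    rw [hQe, Fin.val_succ, List.getD_eq_getElem?_getD, ← List.getElem?_tail, h1 j j.2]
    simp [h.z]
  have key : ∀ W : Subrepresentation ρ, ∀ v ∈ W.toSubmodule, (Q *ᵥ v) 0 ≠ 0 → W = ⊤ := by
    intro W v hv h0
    have e0 : (Pi.single 0 1 : Fin (m + 1) → ℂ) ∈ W.toSubmodule := by
      have a := W.toSubmodule.smul_mem ((Q *ᵥ v) 0)⁻¹ (hQk W v hv)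
      convert a using 1
      funext i
      refine Fin.cases ?_ (fun i => ?_) i
      · simp [h0]
      · simp [Matrix.mulVec, dotProduct, hQ0]
    have ej : ∀ j : Fin (m + 1), (Pi.single j 1 : Fin (m + 1) → ℂ) ∈ W.toSubmodule := by
      intro j
      have a := hk W (Ws.getD j []) _ e0
      have b := vC_app h hM (bv p (m + 1) (0 : Fin (m + 1))) (Ws.getD j [])
      rw [vC_bv h] at b
      rw [← b, Fin.val_zero, h3 j j.2, vC_bv h] at a
      exact a
    refine Subrepresentation.toSubmodule_injective (eq_top_iff.mpr fun u _ => ?_)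
    rw [pi_eq_sum_univ' u]
    exact Submodule.sum_mem _ fun j _ => Submodule.smul_mem _ _ (ej j)
  have : NeZero (Nat.card G : ℂ) := ⟨Nat.cast_ne_zero.mpr Nat.card_pos.ne'⟩
  have hn : (⊥ : Subrepresentation ρ) ≠ ⊤ := fun e => by
    have := congrArg Subrepresentation.toSubmodule e
    exact bot_ne_top (α := Submodule ℂ (Fin (m + 1) → ℂ)) this
  have : Nontrivial (Subrepresentation ρ) := ⟨⟨_, _, hn⟩⟩
  refine ⟨fun W => ?_⟩
  obtain ⟨W', hc⟩ := exists_isCompl W
  have ht : (Pi.single 0 1 : Fin (m + 1) → ℂ) ∈ (W ⊔ W').toSubmodule := by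
    rw [hc.sup_eq_top]; exact Submodule.mem_top
  obtain ⟨a, ha, b, hb, e⟩ := Submodule.mem_sup.mp ht
  have h4 : (Q *ᵥ a) 0 + (Q *ᵥ b) 0 ≠ 0 := by
    rw [← Pi.add_apply, ← Matrix.mulVec_add, e, Matrix.mulVec_single_one]
    show Q 0 0 ≠ 0
    rw [hQe]; exact h2
  by_cases h5 : (Q *ᵥ a) 0 = 0
  · left
    have := key W' b hb (by rwa [h5, zero_add] at h4)
    rw [this] at hc
    exact eq_bot_of_isCompl_top hc
  · exact Or.inr (key W a ha h5)

/-- integer operations -/
def opZ : Ops ℤ := ⟨Int.mul, Int.add, Int.ofNat 0, Int.ofNat 1⟩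

theorem homZ : Hom opZ (fun a : ℤ => (a : ℂ)) :=
  ⟨fun a b => Int.cast_mul a b, fun a b => Int.cast_add a b, Int.cast_zero, Int.cast_one⟩

/-- operations on Gaussian integers as pairs -/
def opG : Ops (ℤ × ℤ) :=
  ⟨fun a b => (a.1 * b.1 - a.2 * b.2, a.1 * b.2 + a.2 * b.1), fun a b => (a.1 + b.1, a.2 + b.2),
    (0, 0), (1, 0)⟩

theorem homG : Hom opG (fun a : ℤ × ℤ => (a.1 : ℂ) + a.2 * Complex.I) :=
  ⟨fun a b => by
    simp only [opG]; push_cast
    linear_combination (-(a.2 * b.2 : ℂ)) * Complex.I_mul_I,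
   fun a b => by simp only [opG]; push_cast; ring, by simp [opG], by simp [opG]⟩

end Cfsg.Agent.LeU.Nort
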