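import Mathlib
import Cfsg.Agent.Golay.Classes

/-! Generation of the Mathieu group of degree 23 by triples of elements of prime order. -/

set_option autoImplicit false
set_option maxRecDepth 100000

namespace Cfsg.Agent.LeU.Tri
open Cfsg.Agent.Golay Module MulAction

section
variable {α : Type} [Fintype α] [DecidableEq α]

/-- the functions fixed by a permutation -/
def Fix (g : Equiv.Perm α) : Submodule ℚ (α → ℚ) where
  carrier := {f | ∀ i, f (g i) = f i}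
  add_mem' := fun {a b} ha hb i => by rw [Pi.add_apply, Pi.add_apply, ha i, hb i]
  zero_mem' := fun _ => rfl
  smul_mem' := fun c a ha i => by rw [Pi.smul_apply, Pi.smul_apply, ha i]

omit [DecidableEq α] in
theorem ree {x y z : Equiv.Perm α} (h : x * y * z = 1) :
    finrank ℚ (Fix x) + finrank ℚ (Fix y) + finrank ℚ (Fix z) ≤
      Fintype.card α + 2 * finrank ℚ ↥(Fix x ⊓ Fix y) := by
  have hz : ∀ u ∈ Fix z, ∀ i, u (x (y i)) = u i := fun u hu i => by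
    have e : z * (x * y) = 1 := by rw [eq_inv_of_mul_eq_one_right h, inv_mul_cancel]
    have := hu (x (y i))
    rw [show z (x (y i)) = i from congrArg (fun s : Equiv.Perm α => s i) e] at this
    exact this.symm
  let ψ : Fix z →ₗ[ℚ] (α → ℚ) := (LinearMap.funLeft ℚ ℚ x - LinearMap.id).domRestrict (Fix z)
  have hψ : ∀ (u : Fix z) i, ψ u i = u.1 (x i) - u.1 i := fun _ _ => rfl
  have h1 := LinearMap.finrank_range_add_finrank_ker ψ
  have h2 : finrank ℚ (LinearMap.ker ψ) ≤ finrank ℚ ↥(Fix x ⊓ Fix y) := by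
    rw [← Submodule.finrank_map_subtype_eq]
    refine Submodule.finrank_mono ?_
    rintro _ ⟨u, hu, rfl⟩
    have a : ∀ i, u.1 (x i) = u.1 i := fun i => sub_eq_zero.mp (by
      rw [← hψ, LinearMap.mem_ker.mp hu]; rfl)
    exact ⟨a, fun i => (a (y i)).symm.trans (hz u u.2 i)⟩
  have h3 : LinearMap.range ψ ⊓ (Fix x ⊔ Fix y) = ⊥ := by
    rw [eq_bot_iff]
    rintro _ ⟨⟨u, rfl⟩, hw⟩
    obtain ⟨a, ha, b, hb, e⟩ := Submodule.mem_sup.mp hw
    have e1 : ∑ i, ψ u i * a i = 0 := by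
      simp only [hψ, sub_mul, Finset.sum_sub_distrib]
      rw [← Equiv.sum_comp x fun i => u.1 i * a i]
      simp only [ha _, sub_self]
    have e2 : ∑ i, ψ u i * b i = 0 := by
      simp only [hψ, sub_mul, Finset.sum_sub_distrib]
      rw [← Equiv.sum_comp y fun i => u.1 (x i) * b i]
      simp only [hb _, hz u u.2, sub_self]
    have e3 : ∑ i, ψ u i * ψ u i = 0 := by
      have : ∀ i, ψ u i * ψ u i = ψ u i * a i + ψ u i * b i := fun i => by
        rw [← mul_add, ← Pi.add_apply a b, e]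
      simp only [this, Finset.sum_add_distrib, e1, e2, add_zero]
    rw [Finset.sum_eq_zero_iff_of_nonneg fun i _ => mul_self_nonneg _] at e3
    exact funext fun i => mul_self_eq_zero.mp (e3 i (Finset.mem_univ i))
  have h4 := Submodule.finrank_sup_add_finrank_inf_eq (LinearMap.range ψ) (Fix x ⊔ Fix y)
  have h5 := Submodule.finrank_sup_add_finrank_inf_eq (Fix x) (Fix y)
  have h6 := Submodule.finrank_le (LinearMap.range ψ ⊔ (Fix x ⊔ Fix y))
  rw [h3, finrank_bot] at h4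
  rw [Module.finrank_fintype_fun_eq_card] at h6
  omega

theorem burn (g : Equiv.Perm α) :
    Fintype.card α + (orderOf g - 1) * (Finset.univ.filter fun a => g a = a).card ≤
      orderOf g * finrank ℚ (Fix g) := by
  classical
  have h1 := sum_card_fixedBy_eq_card_orbits_mul_card_group (Subgroup.zpowers g) α
  have h2 : Fintype.card (Quotient (orbitRel (Subgroup.zpowers g) α)) ≤ finrank ℚ (Fix g) := by
    rw [← Module.finrank_fintype_fun_eq_card ℚ, ← LinearMap.finrank_range_of_inj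
      (LinearMap.funLeft_injective_of_surjective ℚ ℚ _
        (Quotient.mk_surjective (s := orbitRel (Subgroup.zpowers g) α)))]
    refine Submodule.finrank_mono ?_
    rintro _ ⟨f, rfl⟩ i
    exact congrArg f (Quotient.sound ⟨⟨g, Subgroup.mem_zpowers g⟩, rfl⟩)
  rw [Fintype.card_zpowers, ← Finset.add_sum_erase _ _ (Finset.mem_univ 1)] at h1
  have h3 := Finset.card_nsmul_le_sum (Finset.univ.erase (1 : Subgroup.zpowers g))
    (fun h => Fintype.card (fixedBy α h)) (Finset.univ.filter fun a => g a = a).card (by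
      rintro ⟨_, n, rfl⟩ -
      rw [Fintype.card_subtype]
      refine Finset.card_le_card fun a ha => ?_
      simp only [Finset.mem_filter, Finset.mem_univ, true_and] at ha ⊢
      exact Equiv.Perm.zpow_apply_eq_self_of_apply_eq_self ha n)
  rw [Finset.card_erase_of_mem (Finset.mem_univ _), Finset.card_univ, Fintype.card_zpowers,
    smul_eq_mul] at h3
  have h4 : Fintype.card (fixedBy α (1 : Subgroup.zpowers g)) = Fintype.card α := by
    rw [Fintype.card_subtype]; simp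
  have h5 := Nat.mul_le_mul_right (orderOf g) h2
  rw [mul_comm (orderOf g)]
  omega

end

theorem two_le {x y : Spor.M23} (h : Subgroup.closure {x, y} = ⊤) :
    finrank ℚ ↥(Fix (x : P24) ⊓ Fix (y : P24)) ≤ 2 := by
  let φ : ↥(Fix (x : P24) ⊓ Fix (y : P24)) →ₗ[ℚ] (Fin 2 → ℚ) :=
    (LinearMap.funLeft ℚ ℚ ![none, some 0]).domRestrict _
  have hi : Function.Injective φ := by
    rw [injective_iff_map_eq_zero]
    intro u hu
    have a : ∀ g : Spor.M23, u.1 ∈ Fix (g : P24) := fun g => by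
      have hg : g ∈ Subgroup.closure {x, y} := h ▸ Subgroup.mem_top g
      induction hg using Subgroup.closure_induction with
      | mem k hk =>
        rcases hk with rfl | rfl
        · exact u.2.1
        · exact u.2.2
      | one => exact fun _ => rfl
      | mul a b _ _ ha hb => exact fun i => (ha _).trans (hb i)
      | inv a _ ha =>
        intro i
        have := ha ((a : P24)⁻¹ i)
        rw [show (a : P24) ((a : P24)⁻¹ i) = i by simp] at this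
        exact this.symm
    refine Subtype.ext (funext fun i => ?_)
    by_cases e : i = none
    · subst e; exact congrFun hu 0
    · obtain ⟨g, hg, e'⟩ := trans_pt2 (p := none) (q := some 0) (by simp) (Ne.symm e)
      have := a ⟨g, hg, congrArg Prod.fst e'⟩ (some 0)
      rw [show g (some 0) = i from congrArg Prod.snd e'] at this
      exact this.trans (congrFun hu 1)
  simpa using LinearMap.finrank_le_finrank_of_injective hi

theorem fix_ne (x : Spor.M23) : (Fx (x : P24)).Nonempty := ⟨none, mem_Fx.mpr x.2.2⟩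

theorem burn' (x : Spor.M23) :
    24 + (orderOf x - 1) * (Fx (x : P24)).card ≤ orderOf x * finrank ℚ (Fix (x : P24)) := by
  have := burn (x : P24)
  rwa [card_golayPt, Subgroup.orderOf_coe] at this

theorem rk2 {x : Spor.M23} (h : orderOf x = 2) : 16 ≤ finrank ℚ (Fix (x : P24)) := by
  have := burn' x
  rw [h, (Fx_involution x.2.1 ((Subgroup.orderOf_coe x).trans h) (fix_ne x)).2] at this
  omega

theorem rk3 {x : Spor.M23} (h : orderOf x = 3) : 12 ≤ finrank ℚ (Fix (x : P24)) := by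
  have := burn' x
  rw [h, card_Fx_three x.2.1 ((Subgroup.orderOf_coe x).trans h) (fix_ne x)] at this
  omega

theorem rk5 {x : Spor.M23} (h : orderOf x = 5) : 8 ≤ finrank ℚ (Fix (x : P24)) := by
  have := burn' x
  have : Fact (Nat.Prime 5) := ⟨by norm_num⟩
  have h2 := Equiv.Perm.card_compl_support_modEq (p := 5) (n := 1) (σ := (x : P24)) (by
    rw [pow_one, ← h, ← Subgroup.orderOf_coe, pow_orderOf_eq_one])
  have h3 : (x : P24).supportᶜ = Fx (x : P24) := by ext a; simp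
  rw [h3, card_golayPt, Nat.ModEq] at h2
  rw [h] at *
  omega

theorem rk7 {x : Spor.M23} (h : orderOf x = 7) : 5 ≤ finrank ℚ (Fix (x : P24)) := by
  have := burn' x
  have h2 := (fix_ne x).card_pos
  rw [h] at this
  omega

theorem rk1 (x : Spor.M23) : 1 ≤ finrank ℚ (Fix (x : P24)) := by
  have := burn' x
  rcases Nat.eq_zero_or_pos (finrank ℚ (Fix (x : P24))) with h | h
  · rw [h] at this; omega
  · exact h

theorem bound {x y z : Spor.M23} (h : x * y * z = 1) (hg : Subgroup.closure {x, y} = ⊤) :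
    finrank ℚ (Fix (x : P24)) + finrank ℚ (Fix (y : P24)) + finrank ℚ (Fix (z : P24)) ≤ 28 := by
  have h1 := ree (x := (x : P24)) (y := y) (z := z) (congrArg Subtype.val h)
  have h2 := two_le hg
  rw [card_golayPt] at h1
  omega

/-- zero if the data give a generating triple -/
noncomputable def cert (d : (ℕ × ℕ × ℕ) × ℕ × ℕ × List (List ℕ)) : Bool :=
  Nat.beq (sumL (fun c => Nat.add (m24Err c) (Nat.xor (get 5 c 23) 23)) [d.2.1, d.2.2.1]) 0 &&
  (Nat.beq (ordErr d.1.1 d.2.1) 0 && (Nat.beq (ordErr d.1.2.1 d.2.2.1) 0 &&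
  (Nat.beq (ordErr d.1.2.2 (inv (mul d.2.1 d.2.2.1))) 0 &&
    decide (evalWs 24 5 [d.2.1, d.2.2.1, inv d.2.1, inv d.2.2.1] d.2.2.2 = gensM23))))

theorem of_cert {p q r : ℕ} (hp : p.Prime) (hq : q.Prime) (hr : r.Prime)
    {d : ℕ × ℕ × List (List ℕ)} (h : cert ((p, q, r), d) = true) :
    ∃ x y z : Spor.M23, orderOf x = p ∧ orderOf y = q ∧ orderOf z = r ∧ x * y * z = 1 ∧
      Subgroup.closure {x, y} = ⊤ := by
  obtain ⟨c, e, ws⟩ := d
  simp only [cert, Bool.and_eq_true, Nat.beq_eq, decide_eq_true_eq] at h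
  obtain ⟨h1, h2, h3, h4, h5⟩ := h
  have hin : In pc Spor.M23 [c, e] := (fixTest_pt (k := 23) (by norm_num)).in_St h1
  obtain ⟨x, hx, rfl⟩ := hin c (by simp)
  obtain ⟨y, hy, rfl⟩ := hin e (by simp)
  rw [mul_pc, inv_pc, ordErr_pc hr] at h4
  rw [ordErr_pc hp] at h2
  rw [ordErr_pc hq] at h3
  refine ⟨⟨x, hx⟩, ⟨y, hy⟩, (⟨x, hx⟩ * ⟨y, hy⟩)⁻¹, by rw [← Subgroup.orderOf_coe]; exact h2,
    by rw [← Subgroup.orderOf_coe]; exact h3, by rw [← Subgroup.orderOf_coe]; exact h4,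
    mul_inv_cancel _, ?_⟩
  set H := (Subgroup.closure ({⟨x, hx⟩, ⟨y, hy⟩} : Set Spor.M23)).map Spor.M23.subtype with hH
  have mx : x ∈ H := ⟨⟨x, hx⟩, Subgroup.subset_closure (by simp), rfl⟩
  have my : y ∈ H := ⟨⟨y, hy⟩, Subgroup.subset_closure (by simp), rfl⟩
  have h6 : In pc H [pc x, pc y, inv (pc x), inv (pc y)] := by
    rw [inv_pc, inv_pc]
    intro c hc
    simp only [List.mem_cons, List.not_mem_nil, or_false] at hc
    rcases hc with e | e | e | e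
    · exact ⟨x, mx, e.symm⟩
    · exact ⟨y, my, e.symm⟩
    · exact ⟨x⁻¹, H.inv_mem mx, e.symm⟩
    · exact ⟨y⁻¹, H.inv_mem my, e.symm⟩
  have h7 : In pc H gensM23 := h5 ▸ gE.in_evalWs (by norm_num) h6 ws
  have h8 : Spor.M23 ≤ H := gen_M23.2.trans ((Subgroup.closure_le _).mpr fun g hg => by
    obtain ⟨k, hk, e⟩ := h7 _ hg.2
    exact pc_injective e ▸ hk)
  rw [eq_top_iff]
  intro g _
  obtain ⟨k, hk, e⟩ := h8 g.2
  exact (Subtype.ext e : k = g) ▸ hk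

/-- the generating pairs -/
def tab : List ((ℕ × ℕ × ℕ) × ℕ × ℕ × List (List ℕ)) :=
  [((2, 5, 11), 984242708249278002377867998502431282, 961443755329829237551110528610666962,
    [[0, 3, 3, 0, 1, 0, 3, 0, 3, 3, 0, 3, 3, 0, 3, 2, 3, 2, 3, 2, 1, 1, 2, 1, 2], [3, 3, 0, 3, 0, 3, 0, 1, 0, 3, 3, 0, 1, 0, 3, 3, 2, 3, 2, 3, 2]]),
   ((2, 5, 23), 984087760514619769708823412503916741, 960137677682490480820297769324914262,
    [[3, 0, 3, 0, 1, 0, 1, 0, 3, 0, 1, 0, 1, 0, 1, 2, 1, 2, 3, 3, 2, 1, 2, 1, 2], [0, 3, 0, 1, 0, 3, 0, 3, 0, 3, 0, 1, 0, 3, 0, 3, 3, 2, 1, 2, 3, 2, 3, 2, 1, 2, 3]]),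
   ((2, 7, 7), 977718725454645408129497518449151008, 982908824886203585653519973341345907,
    [[0, 3, 0, 3, 0, 1, 0, 3, 0, 3, 0, 3, 3, 0, 3, 3, 2, 3, 2, 3, 3, 3, 2, 3], [0, 3, 0, 1, 0, 1, 1, 1, 0, 1, 0, 1, 1, 1, 2, 1, 1, 2, 1, 2, 3, 2, 1, 1, 1]]),
   ((2, 7, 11), 984159739662526352166722481920720096, 975366582805261324525496596344133322,
    [[1, 1, 0, 3, 0, 1, 1, 1, 0, 1, 0, 1, 1, 1, 2, 3, 3], [0, 1, 0, 3, 3, 3, 0, 3, 0, 1, 1, 0, 1, 1, 2, 1, 1, 1, 2, 3, 2, 3, 2, 1]]),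
   ((2, 7, 23), 962588708899449217894467601170545696, 961238516593591673241750767328598275,
    [[1, 0, 3, 3, 3, 0, 3, 3, 0, 3, 3, 0, 3, 3, 2, 1, 1, 2, 3, 2, 1, 2, 1], [3, 3, 3, 0, 3, 0, 1, 0, 1, 0, 1, 0, 3, 3, 3, 2, 1, 2, 3, 3, 2, 3, 2, 3, 2]]),
   ((2, 11, 11), 984813173628704121656138504227390535, 972322522446373415898037116307948896,
    [[0, 1, 1, 1, 0, 3, 0, 1, 1, 1, 1, 1, 0, 1], [3, 0, 1, 1, 0, 3, 0, 3, 0, 3, 3, 0, 1, 2, 3, 3, 2, 1, 2, 3, 2]]),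
   ((2, 11, 23), 955530428383690302830270512724886582, 968990258716713805873230241963553140,
    [[3, 3, 0, 3, 0, 1, 1, 1, 1, 0, 1, 0, 3, 3, 3, 3, 2, 3, 2, 3], [3, 3, 3, 3, 0, 3, 3, 0, 1, 0, 3, 0, 3, 3, 2, 1, 2, 1, 1, 1, 1]]),
   ((2, 23, 23), 984474077397641743376427032193378496, 963358063407934121397839387302083851,
    [[1, 1, 1, 1, 1, 1, 1, 0, 3, 3, 3, 3, 0, 3, 2, 1, 1, 2, 1, 1, 2, 3], [0, 1, 0, 3, 3, 0, 3, 0, 1, 1, 1, 0, 3, 0, 3, 2, 3, 3, 2, 1, 1, 1, 1, 1]]),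
   ((3, 3, 11), 955650198628923579213157368126918705, 968711462531781252334024937354397071,
    [[2, 3, 2, 3, 2, 3, 0, 3, 0, 3, 2, 3, 0, 3, 0, 1, 2, 1, 0], [3, 0, 1, 2, 1, 0, 1, 2, 1, 2, 1, 2, 3, 0, 3, 2, 3, 0, 1, 0, 1]]),
   ((3, 3, 23), 964048651947049002657302109129726001, 963498421571084607054241791411359123,
    [[3, 0, 1, 2, 3, 2, 3, 0, 1, 0, 3, 2, 3, 0, 1, 0, 1, 2, 1], [2, 1, 2, 3, 2, 1, 2, 1, 0, 1, 2, 1, 0, 3, 2, 1, 0, 1, 2, 3, 2, 1, 2]]),
   ((3, 5, 5), 969726723019369851702217869914921189, 975194239637063845971067753189223463,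
    [[0, 3, 0, 3, 3, 2, 3, 2, 1, 2, 3, 3, 0, 3, 0, 3], [3, 2, 3, 2, 1, 2, 1, 0, 3, 0, 1, 0, 3, 2, 1, 0, 3]]),
   ((3, 5, 7), 980374881598896085260975507580127366, 984806539221502909650290957733894312,
    [[1, 0, 3, 3, 2, 1, 0, 1, 2, 3, 0, 3, 2, 3, 3, 0, 1, 0, 1], [2, 3, 2, 3, 3, 0, 3, 2, 1, 2, 3, 0, 3, 2, 1, 2, 1, 2, 3]]),
   ((3, 5, 11), 960705549483041154464487410540821024, 977914607690598342638290259162636333,
    [[3, 0, 3, 0, 1, 0, 3, 3, 0, 1, 1, 2, 1, 0, 1, 0, 1, 2, 1], [1, 0, 1, 1, 0, 1, 0, 1, 0, 3, 3, 0, 3, 2, 3, 0, 3, 2]]),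
   ((3, 5, 23), 984152809670779714505287698500389376, 983348442703415008602983271938303014,
    [[1, 2, 3, 2, 3, 2, 1, 0, 3, 3, 2, 1, 0, 3, 0, 1], [3, 3, 2, 1, 0, 1, 2, 3, 2, 3, 2, 1, 0, 1, 0, 1, 1]]),
   ((3, 7, 7), 971834252903048687567856605931740354, 969093666127361211759864955681782372,
    [[0, 1, 2, 3, 2, 1, 1, 0, 1, 1, 2, 3, 2, 1, 1, 1], [0, 3, 0, 1, 2, 1, 1, 1, 0, 3, 2, 3, 3, 2, 3, 2, 3]]),
   ((3, 7, 11), 981488074596812082896514759581146160, 961484583219348385395269476588071026,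
    [[2, 3, 2, 1, 0, 1, 1, 2, 1, 0, 1, 1, 0, 1, 1, 1, 2, 3], [1, 0, 1, 1, 1, 2, 3, 2, 3, 3, 0, 1, 1, 2, 3, 2]]),
   ((3, 7, 23), 984243285705861716397465814968076501, 979521528542352704366402156744858080,
    [[2, 3, 0, 3, 2, 1, 1, 0, 1, 2, 1, 0, 1, 2, 3, 0, 3], [1, 1, 2, 1, 1, 1, 2, 3, 3, 3, 2, 1, 2, 3, 0, 3, 3, 0]]),
   ((3, 11, 11), 968368057940997964373554076775392332, 976297838615719938546130218685565637,
    [[2, 3, 0, 1, 2, 1, 0, 1, 2, 1, 2, 3, 3, 2, 3], [1, 0, 3, 3, 0, 1, 2, 3, 2, 3, 3, 2, 3, 3, 3, 2, 1, 2]]),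
   ((3, 11, 23), 973621597518680832644030234887343330, 964880078881581118802786318524500520,
    [[2, 1, 2, 1, 0, 3, 3, 0, 3, 0, 1, 0, 3, 0, 3, 0], [3, 3, 2, 3, 2, 3, 0, 3, 2, 1, 2, 3, 3, 0, 1, 2, 1]]),
   ((3, 23, 23), 984440277868908792398336705264537632, 971546831616327837346592305863280141,
    [[1, 0, 3, 2, 1, 1, 1, 0, 1, 1, 1, 2], [0, 1, 2, 3, 3, 0, 3, 0, 3, 0, 3, 3, 0, 1, 0]]),
   ((5, 5, 5), 984757984896873230066351066392541715, 972278291505314809557489183869207926,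
    [[0, 1, 1, 0, 1, 0, 1, 2, 1, 1, 2, 1, 1, 0, 3], [2, 2, 1, 2, 1, 0, 1, 1, 2, 2, 1, 1]]),
   ((5, 5, 7), 984751759488631182147070486634710605, 964033364954178224294510262852160020,
    [[3, 2, 1, 2, 3, 3, 0, 1, 2, 1, 0, 3, 2, 3, 3, 2, 2], [3, 0, 0, 1, 1, 2, 2, 1, 1, 2, 3, 3]]),
   ((5, 5, 11), 984486633248911732565594949097463233, 956241399060361172623152029177554317,
    [[3, 2, 1, 2, 2, 1, 0, 1, 0, 3, 2, 2, 1, 1, 0, 3], [2, 1, 1, 0, 1, 2, 2, 3, 0, 1, 0, 1, 0, 1]]),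
   ((5, 5, 23), 975366126660164147987126839991293198, 974333176509742436112832791427143692,
    [[3, 2, 3, 0, 1, 2, 2, 1, 0, 3, 0, 3, 0, 0, 3], [1, 0, 3, 3, 2, 1, 2, 1, 0, 0, 3, 2, 3, 3]]),
   ((5, 7, 7), 957497629203544443671149288826883616, 984048703462558909566994474028343347,
    [[1, 2, 3, 0, 1, 2, 3, 0, 3, 0, 0, 1, 2, 3, 0, 3], [0, 0, 3, 3, 3, 0, 0, 3, 2, 2, 1, 0, 0, 3]]),
   ((5, 7, 11), 959785575590453121261499850870282884, 984279254731716498678037529430180165,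
    [[1, 0, 1, 0, 1, 0, 0, 3, 2, 3, 3, 0, 0, 3, 0], [1, 0, 0, 3, 3, 3, 2, 1, 0, 3, 2, 3, 3, 3, 0]]),
   ((5, 7, 23), 957560525088419702509523979165215316, 979179603039986247583232992019157363,
    [[2, 2, 3, 0, 3, 3, 3, 0, 1, 1, 1, 0, 1, 0], [1, 0, 3, 2, 1, 1, 2, 1, 2, 1, 1, 2, 2, 3, 3]]),
   ((5, 11, 11), 973112798317148948420297932506531336, 976380069702670915383855795116947785,
    [[1, 1, 1, 1, 0, 0, 1, 2, 3, 2, 3, 0, 3, 0, 1], [1, 1, 1, 2, 3, 0, 1, 0, 1, 1, 0, 0, 1, 2]]),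
   ((5, 11, 23), 984757387165953001786982677025393874, 955879165433037032636573696983696557,
    [[1, 2, 3, 3, 3, 0, 3, 2, 3, 3, 2, 3, 2, 1, 2], [1, 1, 0, 0, 1, 2, 2, 1, 0, 0, 3, 3, 0, 3, 3, 2, 2]]),
   ((5, 23, 23), 970565810746172919317070260984059973, 977585055842531910670327752637599109,
    [[1, 2, 1, 2, 1, 2, 3, 0, 1, 2, 2, 3, 3, 0, 3, 3], [3, 3, 0, 1, 2, 1, 0, 3, 0, 1, 2, 2, 3, 2, 2]]),
   ((7, 7, 7), 984480853926035286989902008288915939, 969079204425661981813979362628383250,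
    [[2, 1, 0, 1, 0, 3, 3, 3, 0, 3, 0, 0, 1, 2], [3, 0, 0, 3, 0, 1, 0, 1, 2, 3, 3, 0, 1, 1, 0]]),
   ((7, 7, 11), 981590784942642644798350874660670752, 958553026533234422619914519687412774,
    [[2, 2, 3, 0, 0, 1, 2, 2, 3, 3, 0, 1, 0, 0], [0, 0, 1, 1, 2, 3, 2, 3, 0, 3, 0, 1, 2, 1]]),
   ((7, 7, 23), 956707886984597047340161017218311301, 962224807347832881631837827922770272,
    [[0, 0, 0, 1, 0, 3, 0, 3, 0, 1, 2, 1, 1, 2, 3, 2], [2, 3, 2, 1, 2, 2, 3, 3, 2, 3, 3, 0, 1, 2]]),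
   ((7, 11, 11), 971376024446768252974320732360837731, 962587314648128995978058979687420393,
    [[0, 3, 0, 3, 3, 2, 3, 0, 1, 0, 0, 1, 0, 0], [2, 2, 3, 0, 1, 0, 1, 2, 1, 1, 2, 1]]),
   ((7, 11, 23), 965378544963119862983675200295057730, 962342078827665237377592484009005602,
    [[0, 3, 0, 1, 2, 3, 2, 2, 2, 1, 2, 1, 0, 1, 1, 0], [3, 3, 0, 0, 3, 3, 2, 2, 1, 0, 1, 1, 2, 3, 0]]),
   ((7, 23, 23), 970366314050970574603139545883196884, 967371365027974709226590203497796275,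
    [[2, 1, 0, 3, 0, 3, 0, 3, 2, 3, 0, 0, 0, 1, 2], [0, 3, 0, 0, 3, 3, 2, 2, 1, 1, 2, 3, 2, 1, 1]]),
   ((11, 11, 11), 959984801641048755942932632748841354, 979559825160443344989570721706757228,
    [[0, 1, 2, 3, 3, 2, 3, 3, 3, 3, 2, 1, 1, 1], [2, 2, 3, 3, 0, 0, 1, 2, 3, 3, 3, 0, 0, 0]]),
   ((11, 11, 23), 967292380667228725473204035081635220, 981676407231492139516745302536618089,
    [[0, 0, 0, 3, 3, 3, 2, 2, 1, 0, 1, 0, 0, 0, 0, 1, 1], [0, 3, 2, 2, 2, 3, 2, 1, 0, 0, 1, 2, 3, 0, 0, 1, 1, 1]]),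
   ((11, 23, 23), 975359094833083846208866169638622546, 970963652379858548948009739725395190,
    [[1, 1, 0, 3, 0, 1, 2, 1, 1, 0, 0, 0, 0, 1], [0, 3, 3, 0, 0, 1, 1, 2, 3, 3, 3, 0, 3, 2]]),
   ((23, 23, 23), 977762219009297168219369003358260879, 971346195692806193393243446900837519,
    [[2, 3, 2, 2, 2, 1, 0, 1, 0, 3, 2, 2, 3, 3], [2, 2, 1, 0, 3, 0, 3, 2, 1, 1, 0, 3]])]

theorem tab_ok : ∀ d ∈ tab, cert d = true := by decide +kernel

theorem tab_all : ∀ p ∈ [2, 3, 5, 7, 11, 23], ∀ q ∈ [2, 3, 5, 7, 11, 23],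
    ∀ r ∈ [2, 3, 5, 7, 11, 23], p ≤ q → q ≤ r → ¬ (p = 2 ∧ q = 2) →
      ¬ ((p = 2 ∧ q = 3) ∨ (p = 2 ∧ q = 5 ∧ r = 5) ∨ (p = 2 ∧ q = 5 ∧ r = 7) ∨
        (p = 3 ∧ q = 3 ∧ r ≤ 7)) → ∃ d ∈ tab, d.1 = (p, q, r) := by decide +kernel

theorem prime_mem {p : ℕ} (hp : p.Prime) (h : p ∣ 10200960) : p ∈ [2, 3, 5, 7, 11, 23] := by
  have : p ∈ Nat.primeFactors 10200960 := Nat.mem_primeFactors.mpr ⟨hp, h, by norm_num⟩
  rw [show Nat.primeFactors 10200960 = {2, 3, 5, 7, 11, 23} by decide +kernel] at this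
  simpa using this

theorem main (p q r : ℕ) (hp : p.Prime) (hq : q.Prime)
    (hr : r.Prime) (hpq : p ≤ q) (hqr : q ≤ r) (hp2 : ¬ (p = 2 ∧ q = 2))
    (hdvd : p ∣ 10200960 ∧ q ∣ 10200960 ∧ r ∣ 10200960) :
    (∃ x y z : Spor.M23, orderOf x = p ∧ orderOf y = q ∧ orderOf z = r ∧ x * y * z = 1 ∧
        Subgroup.closure {x, y} = ⊤) ↔
      ¬ ((p = 2 ∧ q = 3) ∨ (p = 2 ∧ q = 5 ∧ r = 5) ∨ (p = 2 ∧ q = 5 ∧ r = 7) ∨
        (p = 3 ∧ q = 3 ∧ r ≤ 7)) := by
  constructor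
  · rintro ⟨x, y, z, hx, hy, hz, h, hg⟩ hc
    have b := bound h hg
    rcases hc with ⟨rfl, rfl⟩ | ⟨rfl, rfl, rfl⟩ | ⟨rfl, rfl, rfl⟩ | ⟨rfl, rfl, h7⟩
    · have := rk2 hx; have := rk3 hy; have := rk1 z; omega
    · have := rk2 hx; have := rk5 hy; have := rk5 hz; omega
    · have := rk2 hx; have := rk5 hy; have := rk7 hz; omega
    · have := rk3 hx
      have := rk3 hy
      have hm := prime_mem hr hdvd.2.2
      simp only [List.mem_cons, List.not_mem_nil, or_false] at hm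
      rcases hm with rfl | rfl | rfl | rfl | rfl | rfl
      · omega
      · have := rk3 hz; omega
      · have := rk5 hz; omega
      · have := rk7 hz; omega
      · omega
      · omega
  · intro hn
    obtain ⟨⟨_, d⟩, hd, rfl⟩ := tab_all p (prime_mem hp hdvd.1) q (prime_mem hq hdvd.2.1) r
      (prime_mem hr hdvd.2.2) hpq hqr hp2 hn
    exact of_cert hp hq hr (tab_ok _ hd)

end Cfsg.Agent.LeU.Tri
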